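import Cfsg.Agent.H86.RG.Fam
import Cfsg.Agent.R01.Fi22Facts
import Cfsg.Agent.H732.USix
import Cfsg.Agent.S0283

/-!
# S3509, row `Fi22`: the centralizers of the transpositions (helper272, for helper895)

* `quasi_of_double` : a nonsplit double cover of a simple group is quasisimple;
* `quasi` : `C(d) = 2.U6(2)`, `d` a transposition of `Fi22`;
* `Q2` : the data in a group `G` with a normal subgroup `N ≃* Fi22`.
-/

set_option autoImplicit false
open Cfsg

namespace Cfsg.Agent.H272.RG.Fi22

open Subgroup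

theorem quasi_of_double {H K : Type*} [Group H] [Group K] (h : IsNonsplitDoubleCover H K) (hs : IsSimpleGroup K)
    (hc : ¬ IsMulCommutative K) : IsQuasisimple H := by
  obtain ⟨h1, ⟨e⟩, h3⟩ := h
  have hsH : IsSimpleGroup (H ⧸ center H) := e.isSimpleGroup_congr.2 hs
  refine ⟨⟨?_⟩, hsH⟩
  -- the quotient is perfect
  have hq : commutator (H ⧸ center H) = ⊤ := by
    rcases (inferInstance : (commutator (H ⧸ center H)).Normal).eq_bot_or_eq_top with h | h
    · exfalso
      apply hc
      rw [commutator_eq_bot_iff_center_eq_top] at h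
      refine ⟨⟨fun a b => ?_⟩⟩
      have : e.symm b ∈ center (H ⧸ center H) := by rw [h]; trivial
      have h4 := mem_center_iff.1 this (e.symm a)
      apply e.symm.injective
      rw [map_mul, map_mul, h4]
    · exact h
  have hsup : commutator H ⊔ center H = ⊤ := by
    have h4 : (commutator H).map (QuotientGroup.mk' (center H)) = ⊤ := by
      rw [← hq, commutator_def, commutator_def, Subgroup.map_commutator, ← MonoidHom.range_eq_map,
        MonoidHom.range_eq_top.2 (QuotientGroup.mk'_surjective _)]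
    have h5 := congrArg (Subgroup.comap (QuotientGroup.mk' (center H))) h4
    rw [Subgroup.comap_map_eq, QuotientGroup.ker_mk', Subgroup.comap_top] at h5
    exact h5
  have hfin : Finite (center H) := Nat.finite_of_card_ne_zero (by rw [h1]; norm_num)
  have hcard : Nat.card ((commutator H).subgroupOf (center H)) ∣ 2 := by
    rw [← h1]
    exact Subgroup.card_subgroup_dvd_card _
  rcases (Nat.dvd_prime Nat.prime_two).1 hcard with h4 | h4
  · -- a complement
    exfalso
    apply h3 (commutator H)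
    refine isComplement'_of_disjoint_and_mul_eq_univ ?_ ?_
    · rw [← Subgroup.subgroupOf_eq_bot, subgroupOf_eq_bot, disjoint_comm, ← subgroupOf_eq_bot]
      exact Subgroup.card_eq_one.1 h4
    · rw [← Subgroup.mul_normal, sup_comm, hsup, coe_top]
  · have h5 : (commutator H).subgroupOf (center H) = ⊤ := by
      apply Subgroup.eq_top_of_card_eq
      rw [h4, h1]
    rw [subgroupOf_eq_top] at h5
    rw [sup_eq_left.2 h5] at hsup
    exact hsup

section facts

open Cfsg.Agent.Fischer.Abstract Cfsg.Agent.Fischer.Centralizer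
  Cfsg.Agent.Fischer.Group22 Cfsg.Agent.Fischer.Rank22 Cfsg.Agent.Fischer.Unit22 Cfsg.Agent.SporRec.GF4

theorem simple_psu : IsSimpleGroup (PSU 6 F4 2) :=
  Cfsg.Agent.S0283.result (q := 2) hF 6 (by norm_num) (by norm_num)

theorem card_psu : Nat.card (PSU 6 F4 2) = 9196830720 := H732.USix.card_psu6 (by rw [hF]; norm_num)

theorem ncomm_psu : ¬ IsMulCommutative (PSU 6 F4 2) := by
  intro hc
  have hs := simple_psu
  have hfin : Finite (PSU 6 F4 2) := Nat.finite_of_card_ne_zero (by rw [card_psu]; norm_num)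
  let _ : CommGroup (PSU 6 F4 2) := { (inferInstance : Group (PSU 6 F4 2)) with mul_comm := hc.is_comm.comm }
  have h1 := IsSimpleGroup.prime_card (α := PSU 6 F4 2)
  rw [card_psu] at h1
  norm_num at h1

theorem double {d : Spor.Fi22} (hd : d ∈ Cfsg.Agent.R01.Fi22Facts.T) :
    IsNonsplitDoubleCover (centralizer ({d} : Set Spor.Fi22)) (PSU 6 F4 2) := by
  obtain ⟨y, rfl⟩ := R01.Fi22Facts.mem_T_iff.1 hd
  exact isNonsplitDoubleCover_congr (R01.Fi22Facts.centMap R01.Fi22Facts.E (R.t y))
    (isNonsplitDoubleCover_all R Cfsg.Agent.Fischer.Unit22.isNonsplitDoubleCover_C (R.t y) ⟨y, rfl⟩)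

theorem sq_T {d : Spor.Fi22} (hd : d ∈ Cfsg.Agent.R01.Fi22Facts.T) : d * d = 1 ∧ d ≠ 1 := by
  have h1 := R01.Fi22Facts.isThreeTranspositionClass_T.1.1 d hd
  refine ⟨?_, ?_⟩
  · rw [← pow_two, ← h1, pow_orderOf_eq_one]
  · rintro rfl
    rw [orderOf_one] at h1
    norm_num at h1

/-- **Q1** -/
theorem quasi : ∀ d ∈ Cfsg.Agent.R01.Fi22Facts.T, IsQuasisimple (Subgroup.centralizer ({d} : Set Spor.Fi22)) ∧
    ¬ IsAlternating (Subgroup.centralizer ({d} : Set Spor.Fi22) ⧸
      Subgroup.center (Subgroup.centralizer ({d} : Set Spor.Fi22))) ∧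
    (∀ x ∈ Subgroup.centralizer ({d} : Set Spor.Fi22),
      (∀ y ∈ Subgroup.centralizer ({d} : Set Spor.Fi22), x * y = y * x) → x = 1 ∨ x = d) := by
  intro d hd
  have h := double hd
  refine ⟨quasi_of_double h simple_psu ncomm_psu, ?_, ?_⟩
  · obtain ⟨h1, ⟨e⟩, -⟩ := h
    refine H86.RG.not_alt (k := 13) ?_ ?_
    · rw [Nat.card_congr e.toEquiv, card_psu]
      norm_num [Nat.factorial]
    · rw [Nat.card_congr e.toEquiv, card_psu]
      norm_num [Nat.factorial]
  · intro x hx hc
    by_contra hcon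
    push Not at hcon
    have h1 := h.1
    set C := centralizer ({d} : Set Spor.Fi22) with hC
    have hfin : Finite (center C) := Nat.finite_of_card_ne_zero (by rw [h1]; norm_num)
    have hdC : d ∈ C := mem_centralizer_singleton_iff.2 rfl
    have hxz : (⟨x, hx⟩ : C) ∈ center C := mem_center_iff.2 fun g => Subtype.ext (hc g g.2).symm
    have hdz : (⟨d, hdC⟩ : C) ∈ center C := mem_center_iff.2 fun g => Subtype.ext (by
      exact mem_centralizer_singleton_iff.1 g.2)
    let F : Fin 3 → center C := ![1, ⟨⟨d, hdC⟩, hdz⟩, ⟨⟨x, hx⟩, hxz⟩]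
    have hF : Function.Injective F := by
      have n1 : (1 : center C) ≠ ⟨⟨d, hdC⟩, hdz⟩ := fun e => (sq_T hd).2
        (congrArg Subtype.val (congrArg Subtype.val e)).symm
      have n2 : (1 : center C) ≠ ⟨⟨x, hx⟩, hxz⟩ := fun e => hcon.1 (congrArg Subtype.val (congrArg Subtype.val e)).symm
      have n3 : (⟨⟨d, hdC⟩, hdz⟩ : center C) ≠ ⟨⟨x, hx⟩, hxz⟩ := fun e => hcon.2
        (congrArg Subtype.val (congrArg Subtype.val e)).symm
      intro i j hij
      fin_cases i <;> fin_cases j <;> first
        | rfl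
        | exact absurd hij n1
        | exact absurd hij n2
        | exact absurd hij n3
        | exact absurd hij.symm n1
        | exact absurd hij.symm n2
        | exact absurd hij.symm n3
    have := Nat.card_le_card_of_injective F hF
    rw [h1, Nat.card_eq_fintype_card, Fintype.card_fin] at this
    omega

end facts

section transport

variable {G S : Type*} [Group G] [Group S] {N : Subgroup G}

/-- the centralizer of `d` in `N`, as the image of the centralizer in the model -/
def M (e : N ≃* S) (d : N) : Subgroup G :=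
  (centralizer ({e d} : Set S)).map (N.subtype.comp e.symm.toMonoidHom)

theorem mem_M (e : N ≃* S) (d : N) {g : G} : g ∈ M e d ↔ g ∈ N ∧ g * d = d * g := by
  constructor
  · rintro ⟨s, hs, rfl⟩
    refine ⟨(e.symm s).2, ?_⟩
    have h1 := mem_centralizer_singleton_iff.1 hs
    have h2 : e.symm s * d = d * e.symm s := e.injective (by rw [map_mul, map_mul, e.apply_symm_apply, h1])
    exact congrArg Subtype.val h2
  · rintro ⟨hN, hg⟩
    refine ⟨e ⟨g, hN⟩, mem_centralizer_singleton_iff.2 ?_, ?_⟩
    · rw [← map_mul, ← map_mul]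
      exact congrArg e (Subtype.ext hg)
    · show ((e.symm (e ⟨g, hN⟩) : N) : G) = g
      rw [e.symm_apply_apply]

/-- the isomorphism -/
noncomputable def Me (e : N ≃* S) (d : N) : centralizer ({e d} : Set S) ≃* M e d :=
  Subgroup.equivMapOfInjective _ _ (by
    intro a b hab
    exact e.symm.injective (Subtype.ext hab))

theorem center_map {A B : Type*} [Group A] [Group B] (f : A ≃* B) : (center A).map f.toMonoidHom = center B := by
  ext y
  simp only [Subgroup.mem_map, Subgroup.mem_center_iff]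
  constructor
  · rintro ⟨x, hx, rfl⟩ g
    obtain ⟨g', rfl⟩ := f.surjective g
    simpa using congrArg f (hx g')
  · intro hy
    refine ⟨f.symm y, fun g => ?_, by simp⟩
    apply f.injective
    simpa using hy (f g)

theorem quasi_congr {A B : Type*} [Group A] [Group B] (f : A ≃* B) (h : IsQuasisimple A) : IsQuasisimple B := by
  obtain ⟨hp, hs⟩ := h
  have hp' : Group.IsPerfect B := Group.IsPerfect.ofSurjective (f := f.toMonoidHom) f.surjective
  exact ⟨hp', ((QuotientGroup.congr _ _ f (center_map f)).isSimpleGroup_congr).mp hs⟩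

theorem nalt_congr {A B : Type*} [Group A] [Group B] (f : A ≃* B) (h : ¬ IsAlternating (A ⧸ center A)) :
    ¬ IsAlternating (B ⧸ center B) := by
  rintro ⟨n, hn, ⟨g⟩⟩
  exact h ⟨n, hn, ⟨(QuotientGroup.congr _ _ f (center_map f)).trans g⟩⟩

/-- **Q2**, general form -/
theorem transport (hN : N.Normal) (e : N ≃* S) (d : N) (hq : IsQuasisimple (centralizer ({e d} : Set S)))
    (ha : ¬ IsAlternating (centralizer ({e d} : Set S) ⧸ center (centralizer ({e d} : Set S))))
    (hd : ∃ s : S, s * e d ≠ e d * s) :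
    M e d ≤ N ∧ M e d ≠ N ∧ IsQuasisimple (M e d) ∧ ¬ IsAlternating (M e d ⧸ center (M e d)) ∧ (d : G) ∈ M e d ∧
      (∀ n ∈ N, n * (d : G) = d * n → n ∈ M e d) ∧
      ∀ g : G, g * (d : G) = d * g → g ∈ normalizer (M e d : Set G) := by
  refine ⟨fun g hg => ((mem_M e d).1 hg).1, fun h => ?_, quasi_congr (Me e d) hq, nalt_congr (Me e d) ha,
    (mem_M e d).2 ⟨d.2, rfl⟩, fun n hn hc => (mem_M e d).2 ⟨hn, hc⟩, fun g hg => ?_⟩
  · obtain ⟨s, hs⟩ := hd
    apply hs
    have h1 : ((e.symm s : N) : G) ∈ M e d := by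
      rw [h]
      exact (e.symm s).2
    have h2 := ((mem_M e d).1 h1).2
    have h3 : e.symm s * d = d * e.symm s := Subtype.ext h2
    have h4 := congrArg e h3
    rwa [map_mul, map_mul, e.apply_symm_apply] at h4
  · rw [mem_normalizer_iff]
    intro h
    have key : ∀ g : G, g * (d : G) = d * g → ∀ h : G, h ∈ M e d → g * h * g⁻¹ ∈ M e d := by
      intro g hg h hh
      obtain ⟨h1, h2⟩ := (mem_M e d).1 hh
      refine (mem_M e d).2 ⟨hN.conj_mem _ h1 g, ?_⟩
      have h3 : g⁻¹ * (d : G) = d * g⁻¹ := by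
        rw [inv_mul_eq_iff_eq_mul, ← mul_assoc, hg, mul_inv_cancel_right]
      calc g * h * g⁻¹ * (d : G) = g * h * (g⁻¹ * d) := by group
        _ = g * (h * d) * g⁻¹ := by rw [h3]; group
        _ = (g * d) * h * g⁻¹ := by rw [h2]; group
        _ = d * (g * h * g⁻¹) := by rw [hg]; group
    constructor
    · exact key g hg h
    · intro hh
      have h3 : g⁻¹ * (d : G) = d * g⁻¹ := by
        rw [inv_mul_eq_iff_eq_mul, ← mul_assoc, hg, mul_inv_cancel_right]
      have h4 := key g⁻¹ h3 _ hh
      have e1 : g⁻¹ * (g * h * g⁻¹) * g⁻¹⁻¹ = h := by group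
      rwa [e1] at h4

end transport

/-- **Q2** for `Fi22` -/
theorem Q2 {G : Type*} [Group G] {N : Subgroup G} (hN : N.Normal) (e : N ≃* Spor.Fi22) (d : N)
    (hd : e d ∈ Cfsg.Agent.R01.Fi22Facts.T) :
    M e d ≤ N ∧ M e d ≠ N ∧ IsQuasisimple (M e d) ∧ ¬ IsAlternating (M e d ⧸ center (M e d)) ∧ (d : G) ∈ M e d ∧
      (∀ n ∈ N, n * (d : G) = d * n → n ∈ M e d) ∧
      (∀ g : G, g * (d : G) = d * g → g ∈ normalizer (M e d : Set G)) ∧
      ∀ n ∈ N, (∀ m ∈ M e d, n * m = m * n) → n = 1 ∨ n = d := by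
  obtain ⟨h1, h2, h3⟩ := quasi _ hd
  have hs := R01.Fi22Facts.isSimple
  have hne : ∃ s : Spor.Fi22, s * e d ≠ e d * s := by
    by_contra hno
    push Not at hno
    have hz : e d ∈ center Spor.Fi22 := mem_center_iff.2 hno
    rcases (inferInstance : (center Spor.Fi22).Normal).eq_bot_or_eq_top with h | h
    · rw [h, mem_bot] at hz
      exact (sq_T hd).2 hz
    · have hC : centralizer ({e d} : Set Spor.Fi22) = ⊤ := by
        rw [eq_top_iff]
        intro x _
        exact mem_centralizer_singleton_iff.2 (hno x)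
      have h4 : ∀ x : Spor.Fi22, x = 1 ∨ x = e d := fun x => h3 x (by rw [hC]; trivial) fun y _ => by
        have : x ∈ center Spor.Fi22 := by rw [h]; trivial
        exact (mem_center_iff.1 this y).symm
      have h5 : Nat.card Spor.Fi22 ≤ 2 := by
        have h6 : (Set.univ : Set Spor.Fi22) ⊆ {1, e d} := fun x _ => h4 x
        have h7 := Set.ncard_le_ncard h6 (Set.toFinite _)
        rw [Set.ncard_univ] at h7
        exact h7.trans (Set.ncard_insert_le _ _ |>.trans (by rw [Set.ncard_singleton]))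
      rw [R01.Fi22Facts.card] at h5
      norm_num at h5
  obtain ⟨a1, a2, a3, a4, a5, a6, a7⟩ := transport hN e d h1 h2 hne
  refine ⟨a1, a2, a3, a4, a5, a6, a7, fun n hn hc => ?_⟩
  have h5 := h3 (e ⟨n, hn⟩) (mem_centralizer_singleton_iff.2 (by
    rw [← map_mul, ← map_mul]
    exact congrArg e (Subtype.ext (hc _ a5)))) (fun y hy => by
      have h6 : ((e.symm y : N) : G) ∈ M e d := ⟨y, hy, rfl⟩
      have h7 : (⟨n, hn⟩ : N) * e.symm y = e.symm y * ⟨n, hn⟩ := Subtype.ext (hc _ h6)
      have h8 := congrArg e h7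
      rwa [map_mul, map_mul, e.apply_symm_apply] at h8)
  rcases h5 with h5 | h5
  · left
    have h6 : (⟨n, hn⟩ : N) = 1 := e.injective (by rw [h5, map_one])
    exact congrArg Subtype.val h6
  · right
    exact congrArg Subtype.val (e.injective h5)

end Cfsg.Agent.H272.RG.Fi22
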