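import Cfsg.Agent.H272.RG.FiZD0

/-! Certificates for S3509, row `Fi22` (helper272, words of helper895) -/

set_option autoImplicit false
set_option maxRecDepth 1000000
set_option exponentiation.threshold 5000
set_option linter.constructorNameAsVariable false

namespace Cfsg.Agent.H272.RG.FiZ

open Subgroup Cfsg Cfsg.Spor Cfsg.Spor.Fi22 Cfsg.Agent.Fischer Cfsg.Agent.Fischer.Fi22PtsRep
open Cfsg.Agent.H834 Cfsg.Agent.H834.AC Cfsg.Agent.H867.SprFi22 Cfsg.Agent.Lib.PermNet Cfsg.Agent.Lib.PermNetOrbit Cfsg.Agent.Lib.PermNetFix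
open Cfsg.Agent.H123.Cls (lk it it_eq allN allN_iff band band_true evw evw_cons chkL chkL_iff nth)
open Cfsg.Agent.H123.Cls.FiDat (gens gn gn_tab el el_cons el_append el_reverse W words_cover comm_tab)
open Cfsg.Agent.H494.F22 (rho rho_injective)

theorem W_all : (W.all fun y => inC y.2.1 y.2.2.1 || no5 (cm y.2.1 y.2.2.1)) = true := by decide +kernel

end Cfsg.Agent.H272.RG.FiZ
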