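import Cfsg.Agent.H272.RG.FiZD1
import Cfsg.Agent.H272.RG.FiZD3
import Cfsg.Agent.H272.RG.FiZD4

/-!
# S3509, row `Fi22`: conjugates of elements of odd prime order generate (helper272, certificates of helper895)

* **`g3_of_prime`** : some three conjugates of an element of odd prime order generate `Fi22`;
* **`pairs`** : the nine conjugates of an element of the class `3D` under the powers of an element of order nine generate `Fi22`
  pairwise.
-/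

set_option autoImplicit false
set_option maxRecDepth 1000000
set_option exponentiation.threshold 5000
set_option linter.constructorNameAsVariable false

namespace Cfsg.Agent.H272.RG.FiZ

open Subgroup Cfsg Cfsg.Spor Cfsg.Spor.Fi22 Cfsg.Agent.Fischer Cfsg.Agent.Fischer.Fi22PtsRep
open Cfsg.Agent.H834 Cfsg.Agent.H834.AC Cfsg.Agent.H867.SprFi22 Cfsg.Agent.Lib.PermNet Cfsg.Agent.Lib.PermNetOrbit Cfsg.Agent.Lib.PermNetFix
open Cfsg.Agent.H123.Cls (lk it it_eq allN allN_iff band band_true evw evw_cons chkL chkL_iff nth)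
open Cfsg.Agent.H123.Cls.FiDat (gens gn gn_tab el el_cons el_append el_reverse W words_cover comm_tab)
open Cfsg.Agent.H494.F22 (rho rho_injective)

theorem g3_C8 : ∀ z ∈ C8, G3 (el z.1 * el z.2 * (el z.1)⁻¹ * (el z.2)⁻¹) :=
  List.forall_mem_cons.2 ⟨g3_6, List.forall_mem_cons.2 ⟨g3_4, List.forall_mem_cons.2 ⟨g3_5, List.forall_mem_cons.2 ⟨g3_3,
    List.forall_mem_cons.2 ⟨g3_12, List.forall_mem_cons.2 ⟨g3_24, List.forall_mem_cons.2 ⟨g3_34,
    List.forall_mem_cons.2 ⟨g3_45, List.forall_mem_nil _⟩⟩⟩⟩⟩⟩⟩⟩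

theorem g3_of_prime {x : Spor.Fi22} {r : ℕ} (hr : r = 3 ∨ r = 5 ∨ r = 7 ∨ r = 11 ∨ r = 13) (hx : x ^ r = 1) (hx1 : x ≠ 1) :
    G3 x := by
  obtain ⟨y, hy, θ, rfl⟩ := words_cover x
  have h := List.all_eq_true.1 W_all y hy
  rw [← map_pow, MulEquiv.map_eq_one_iff] at hx
  rw [ne_eq, MulEquiv.map_eq_one_iff] at hx1
  apply G3.map
  rw [Bool.or_eq_true] at h
  rcases h with h | h
  · obtain ⟨z, hz, h1⟩ := List.any_eq_true.1 h
    obtain ⟨h2, h3⟩ := of_decide_eq_true h1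
    rw [← h2, ← h3]
    exact g3_C8 z hz
  · exfalso
    rw [cm_eq] at hx hx1
    unfold no5 at h
    simp only [Bool.or_eq_true, Bool.and_eq_true, Bool.not_eq_true'] at h
    rcases h with h | ⟨h3, h5, h7, h11, h13⟩
    · apply hx1
      rw [mdl.eq_of_eqB h, mdl.wd_nil]
    · have key : eqB (rep r (cm y.2.1 y.2.2.1)) [] = true := eqB_of_wd (by rw [mdl.wd_rep, hx, mdl.wd_nil])
      rcases hr with rfl | rfl | rfl | rfl | rfl
      · rw [h3] at key; exact absurd key (by decide)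
      · rw [h5] at key; exact absurd key (by decide)
      · rw [h7] at key; exact absurd key (by decide)
      · rw [h11] at key; exact absurd key (by decide)
      · rw [h13] at key; exact absurd key (by decide)

theorem gw_chk : eqB (rep 9 ([0, 2, 3, 1, 7, 5, 8, 5, 4].map gn)) [] = true := by decide +kernel

theorem g_pow : gD ^ 9 = 1 := by
  rw [gD, el_eq, ← mdl.wd_rep, mdl.eq_of_eqB gw_chk, mdl.wd_nil]

theorem pair_le {k : ℕ} (hk : 1 ≤ k) (hk4 : k ≤ 4) {K : Subgroup Spor.Fi22}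
    (h0 : xD ∈ K) (h1 : gD ^ k * xD * (gD ^ k)⁻¹ ∈ K) : K = ⊤ := by
  have e2 : el [0, 2, 3, 1, 7, 5, 8, 5, 4, 0, 2, 3, 1, 7, 5, 8, 5, 4] = gD ^ 2 := by
    rw [pow_two, gD, ← el_append]; rfl
  have e3 : el [0, 2, 3, 1, 7, 5, 8, 5, 4, 0, 2, 3, 1, 7, 5, 8, 5, 4, 0, 2, 3, 1, 7, 5, 8, 5, 4] = gD ^ 3 := by
    rw [pow_succ, pow_two, gD, ← el_append, ← el_append]; rfl
  have e4 : el [0, 2, 3, 1, 7, 5, 8, 5, 4, 0, 2, 3, 1, 7, 5, 8, 5, 4, 0, 2, 3, 1, 7, 5, 8, 5, 4, 0, 2, 3, 1, 7, 5, 8, 5, 4] =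
      gD ^ 4 := by
    rw [pow_succ, pow_succ, pow_two, gD, ← el_append, ← el_append, ← el_append]; rfl
  obtain rfl | rfl | rfl | rfl : k = 1 ∨ k = 2 ∨ k = 3 ∨ k = 4 := by omega
  · rw [pow_one] at h1; exact pw1 h0 h1
  · rw [← e2] at h1; exact pw2 h0 h1
  · rw [← e3] at h1; exact pw3 h0 h1
  · rw [← e4] at h1; exact pw4 h0 h1

/-- conjugation -/
theorem top_of_conj {K : Subgroup Spor.Fi22} (g : Spor.Fi22) (h : K.map (MulAut.conj g).toMonoidHom = ⊤) : K = ⊤ := by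
  rw [eq_top_iff]
  intro t _
  have h1 : g * t * g⁻¹ ∈ K.map (MulAut.conj g).toMonoidHom := by rw [h]; trivial
  obtain ⟨s, hs, hst⟩ := h1
  have h2 : g * s * g⁻¹ = g * t * g⁻¹ := hst
  have h3 : s = t := by simpa using h2
  rwa [← h3]

theorem pair_lt {k : ℕ} (hk : 1 ≤ k) (hk9 : k < 9) {K : Subgroup Spor.Fi22}
    (h0 : xD ∈ K) (h1 : gD ^ k * xD * (gD ^ k)⁻¹ ∈ K) : K = ⊤ := by
  rcases le_or_gt k 4 with h | h
  · exact pair_le hk h h0 h1
  · apply top_of_conj (gD ^ (9 - k))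
    refine pair_le (k := 9 - k) (by omega) (by omega) ?_ ?_
    · refine ⟨_, h1, ?_⟩
      show gD ^ (9 - k) * (gD ^ k * xD * (gD ^ k)⁻¹) * (gD ^ (9 - k))⁻¹ = xD
      have h2 : gD ^ (9 - k) * gD ^ k = 1 := by
        rw [← pow_add, Nat.sub_add_cancel hk9.le, g_pow]
      calc gD ^ (9 - k) * (gD ^ k * xD * (gD ^ k)⁻¹) * (gD ^ (9 - k))⁻¹
          = (gD ^ (9 - k) * gD ^ k) * xD * (gD ^ (9 - k) * gD ^ k)⁻¹ := by group
        _ = xD := by rw [h2]; group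
    · exact ⟨_, h0, rfl⟩

/-- **the nine conjugates generate pairwise** -/
theorem pairs {i j : ℕ} (hi : i < 9) (hj : j < 9) (hij : i ≠ j) {K : Subgroup Spor.Fi22}
    (h0 : gD ^ i * xD * (gD ^ i)⁻¹ ∈ K) (h1 : gD ^ j * xD * (gD ^ j)⁻¹ ∈ K) : K = ⊤ := by
  wlog hlt : i < j generalizing i j
  · exact this hj hi hij.symm h1 h0 (by omega)
  obtain ⟨k, rfl⟩ := Nat.exists_eq_add_of_lt hlt
  apply top_of_conj ((gD ^ i)⁻¹)
  refine pair_lt (k := k + 1) (by omega) (by omega) ?_ ?_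
  · refine ⟨_, h0, ?_⟩
    show (gD ^ i)⁻¹ * (gD ^ i * xD * (gD ^ i)⁻¹) * (gD ^ i)⁻¹⁻¹ = xD
    group
  · refine ⟨_, h1, ?_⟩
    show (gD ^ i)⁻¹ * (gD ^ (i + k + 1) * xD * (gD ^ (i + k + 1))⁻¹) * (gD ^ i)⁻¹⁻¹ =
      gD ^ (k + 1) * xD * (gD ^ (k + 1))⁻¹
    rw [show i + k + 1 = i + (k + 1) by ring, pow_add]
    group

end Cfsg.Agent.H272.RG.FiZ
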