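import Cfsg.Agent.H973.RG.Tool
import Cfsg.Agent.OddHalf.Table.OutFi22
import Cfsg.Agent.H272.RG.FiZD

/-!
# S3509, row `Fi22`: an involution and an element of the class `3D` do not cover (helper272, piece T3 of helper895)

* `minIx` : proper subgroups have index at least 17 (`|Fi22| > 16!`);
* `fpr_le` : fixed point ratios of elements of odd prime order;
* `fpr_3D` : at most `1/9` for the class `3D`;
* **`kill_z3D`**.
-/

set_option autoImplicit false
open Cfsg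

namespace Cfsg.Agent.H272.RG.FiZ

open MulAction Cfsg.Agent.H106.RC Cfsg.Agent.H345.RG Cfsg.Agent.H973.RG Cfsg.Agent.H867.SprFi22
open Cfsg.Agent.H123.Cls.FiDat (gn el)

theorem sqInner : SqInner Spor.Fi22 := by
  intro a
  by_cases h : ∃ g : Spor.Fi22, a = MulAut.conj g
  · obtain ⟨g, rfl⟩ := h
    exact ⟨g * g, by rw [map_mul]⟩
  · push Not at h
    obtain ⟨g, hg⟩ := Cfsg.Agent.OddHalf.Table.OutFi22.mul_outer a a h h
    exact ⟨g, hg⟩

theorem minIx (hs : IsSimpleGroup Spor.Fi22) : MinIx Spor.Fi22 17 := by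
  intro H hH
  by_contra hlt
  have hfin : Finite Spor.Fi22 := mdl.finite
  have hcore : H.normalCore = ⊥ := by
    rcases (inferInstance : H.normalCore.Normal).eq_bot_or_eq_top with h | h
    · exact h
    · exact absurd (top_le_iff.1 (h ▸ H.normalCore_le)) hH
  have hinj : Function.Injective (toPermHom Spor.Fi22 (Spor.Fi22 ⧸ H)) := by
    rw [← MonoidHom.ker_eq_bot_iff, ← Subgroup.normalCore_eq_ker, hcore]
  have h1 := Nat.card_le_card_of_injective _ hinj
  rw [Nat.card_perm, mdl.card] at h1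
  have h2 : H.index ≤ 16 := by omega
  have h3 : (Nat.card (Spor.Fi22 ⧸ H)).factorial ≤ Nat.factorial 16 := Nat.factorial_le h2
  have h4 : Nat.factorial 16 = 20922789888000 := by norm_num [Nat.factorial]
  omega

section

variable {G Ω : Type} [Group G] [Finite G] [Finite Ω] [Nonempty Ω] [MulAction G Ω] {N : Subgroup G}

omit [Finite Ω] [Nonempty Ω] [Finite G] in
theorem simple_of (hE : Env G Ω N) (e : N ≃* Spor.Fi22) : IsSimpleGroup Spor.Fi22 := e.isSimpleGroup_congr.1 hE.simple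

/-- fixed point ratios of elements of odd prime order -/
theorem fpr_le (hE : Env G Ω N) (e : N ≃* Spor.Fi22) {y : G} {r : ℕ} (hr : r.Prime) (hr2 : r ≠ 2) (hy : y ∈ N)
    (hyr : y ^ r = 1) (hy1 : y ≠ 1) :
    (r = 3 ∨ r = 5 ∨ r = 7 ∨ r = 11 ∨ r = 13) ∧ fpr Ω y ≤ 1 - r * (1 - 1 / (17 : ℕ)) / (((3 : ℕ) : ℚ) * (r - 1)) := by
  have hs := simple_of hE e
  have hfin : Finite Spor.Fi22 := mdl.finite
  set t : N := ⟨y, hy⟩ with ht
  have hx : (e t) ^ r = 1 := by
    rw [← map_pow, show t ^ r = 1 from Subtype.ext hyr, map_one]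
  have hx1 : e t ≠ 1 := by
    intro h
    rw [MulEquiv.map_eq_one_iff] at h
    exact hy1 (congrArg Subtype.val h)
  have hr5 : r = 3 ∨ r = 5 ∨ r = 7 ∨ r = 11 ∨ r = 13 := by
    have := Fact.mk hr
    have h1 : r ∣ Nat.card Spor.Fi22 := by
      rw [← orderOf_eq_prime hx hx1]
      exact orderOf_dvd_natCard _
    rw [mdl.card, show 64561751654400 = 2 ^ 17 * 3 ^ 9 * 5 ^ 2 * 7 * 11 * 13 by norm_num] at h1
    simp only [hr.dvd_mul] at h1
    rcases h1 with ((((h | h) | h) | h) | h) | h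
    · exact absurd ((Nat.prime_dvd_prime_iff_eq hr Nat.prime_two).1 (hr.dvd_of_dvd_pow h)) hr2
    · exact Or.inl ((Nat.prime_dvd_prime_iff_eq hr Nat.prime_three).1 (hr.dvd_of_dvd_pow h))
    · exact Or.inr (Or.inl ((Nat.prime_dvd_prime_iff_eq hr Nat.prime_five).1 (hr.dvd_of_dvd_pow h)))
    · exact Or.inr (Or.inr (Or.inl ((Nat.prime_dvd_prime_iff_eq hr (by norm_num)).1 h)))
    · exact Or.inr (Or.inr (Or.inr (Or.inl ((Nat.prime_dvd_prime_iff_eq hr (by norm_num)).1 h))))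
    · exact Or.inr (Or.inr (Or.inr (Or.inr ((Nat.prime_dvd_prime_iff_eq hr (by norm_num)).1 h))))
  refine ⟨hr5, ?_⟩
  obtain ⟨c, d, hg⟩ := g3_of_prime hr5 hx hx1
  refine F2 (N := N) (m := 17) (by norm_num) (big_of_minIx hE e (minIx hs)) hr hyr hy1
    [1, ((e.symm c : N) : G), ((e.symm d : N) : G)] (by simp) ?_
  set J := Gen y [1, ((e.symm c : N) : G), ((e.symm d : N) : G)] with hJ
  have hmem : ∀ g ∈ [1, ((e.symm c : N) : G), ((e.symm d : N) : G)], g * y * g⁻¹ ∈ J := fun g hg =>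
    Subgroup.subset_closure ⟨g, hg, rfl⟩
  have htop := hg (J.comap (N.subtype.comp (e.symm : Spor.Fi22 →* N)))
    (by
      show ((e.symm (e t) : N) : G) ∈ J
      rw [MulEquiv.symm_apply_apply]
      simpa using hmem 1 (by simp))
    (by
      show ((e.symm (c * e t * c⁻¹) : N) : G) ∈ J
      rw [map_mul, map_mul, map_inv, MulEquiv.symm_apply_apply]
      exact hmem _ (by simp))
    (by
      show ((e.symm (d * e t * d⁻¹) : N) : G) ∈ J
      rw [map_mul, map_mul, map_inv, MulEquiv.symm_apply_apply]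
      exact hmem _ (by simp))
  intro n hn
  have h1 : e ⟨n, hn⟩ ∈ J.comap (N.subtype.comp (e.symm : Spor.Fi22 →* N)) := by rw [htop]; trivial
  have h2 : ((e.symm (e ⟨n, hn⟩) : N) : G) ∈ J := h1
  rwa [MulEquiv.symm_apply_apply] at h2

omit [Finite G] in
/-- the class `3D` -/
theorem fpr_3D (hE : Env G Ω N) (e : N ≃* Spor.Fi22) {h : G} (hh : h ∈ N)
    (h3 : ∃ θ : MulAut Spor.Fi22, e ⟨h, hh⟩ = θ (el [1, 8, 6] * el [2, 5, 7] * (el [1, 8, 6])⁻¹ * (el [2, 5, 7])⁻¹)) :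
    fpr Ω h ≤ 1 / 9 := by
  obtain ⟨θ, h3⟩ := h3
  have h3 : e ⟨h, hh⟩ = θ xD := h3
  let f : Spor.Fi22 →* G := (N.subtype.comp (e.symm : Spor.Fi22 →* N)).comp (θ : Spor.Fi22 →* Spor.Fi22)
  have hf : f (xD) = h := by
    show ((e.symm (θ (xD)) : N) : G) = h
    rw [← h3, MulEquiv.symm_apply_apply]
  have hfN : ∀ n ∈ N, ∃ s, f s = n := by
    intro n hn
    refine ⟨θ.symm (e ⟨n, hn⟩), ?_⟩
    show ((e.symm (θ (θ.symm (e ⟨n, hn⟩))) : N) : G) = n
    rw [MulEquiv.apply_symm_apply, MulEquiv.symm_apply_apply]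
  have hcard : 9 * Nat.card (fixedBy Ω h) ≤ Nat.card Ω := by
    have h9 : 9 * Nat.card (fixedBy Ω h) = Nat.card (Fin 9 × fixedBy Ω h) := by rw [Nat.card_prod, Nat.card_fin]
    rw [h9]
    refine Nat.card_le_card_of_injective (fun q : Fin 9 × fixedBy Ω h => f (gD) ^ (q.1 : ℕ) • (q.2 : Ω)) ?_
    rintro ⟨i, a, ha⟩ ⟨j, b, hb⟩ hab
    change f (gD) ^ (i : ℕ) • a = f (gD) ^ (j : ℕ) • b at hab
    have key : ∀ (k : ℕ) (c : Ω), h • c = c → gD ^ k * xD * (gD ^ k)⁻¹ ∈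
        (stabilizer G (f (gD) ^ k • c)).comap f := by
      intro k c hc
      rw [Subgroup.mem_comap, mem_stabilizer_iff, map_mul, map_mul, map_inv, map_pow, hf, mul_smul, mul_smul,
        inv_smul_smul, hc]
    by_cases hij : (i : ℕ) = j
    · have hij' : i = j := Fin.ext hij
      subst hij'
      have h4 : a = b := smul_left_cancel _ hab
      subst h4
      rfl
    · exfalso
      have h4 := key i a ha
      have h5 := key j b hb
      rw [← hab] at h5
      have h6 := pairs i.2 j.2 hij h4 h5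
      apply hE.nofix (f (gD) ^ (i : ℕ) • a)
      intro n hn
      obtain ⟨s, rfl⟩ := hfN n hn
      have h7 : s ∈ (stabilizer G (f (gD) ^ (i : ℕ) • a)).comap f := by rw [h6]; trivial
      exact h7
  have hn : (0 : ℚ) < Nat.card Ω := by exact_mod_cast (Nat.card_pos : 0 < Nat.card Ω)
  have hc : (9 : ℚ) * Nat.card (fixedBy Ω h) ≤ Nat.card Ω := by exact_mod_cast hcard
  rw [fpr, div_le_div_iff₀ hn (by norm_num)]
  linarith

/-- **piece T3** -/
theorem kill_z3D (hE : Env G Ω N) (e : N ≃* Spor.Fi22) {z h : G} (hz : z ^ 2 = 1) (hz1 : z ≠ 1) (hh : h ∈ N)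
    (h3 : ∃ θ : MulAut Spor.Fi22, e ⟨h, hh⟩ = θ (el [1, 8, 6] * el [2, 5, 7] * (el [1, 8, 6])⁻¹ * (el [2, 5, 7])⁻¹))
    (hc : ∀ ω : Ω, z • ω = ω ∨ h • ω = ω) : False := by
  obtain ⟨r, y, hr, hr2, hyN, hyr, hy1, -, hb⟩ := fpr_invol sqInner hE e hz hz1
  obtain ⟨hr5, hy⟩ := fpr_le hE e hr hr2 hyN hyr hy1
  have h9 := fpr_3D hE e hh h3
  have hcov : Cov Ω ![z, h] := by
    intro ω
    rcases hc ω with h | h
    · exact ⟨0, h⟩
    · exact ⟨1, h⟩
  have h1 := one_le_sum hcov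
  rw [Fin.sum_univ_two] at h1
  have h1 : 1 ≤ fpr Ω z + fpr Ω h := h1
  have h2 : fpr Ω y + 1 / r < 8 / 9 := by
    rcases hr5 with rfl | rfl | rfl | rfl | rfl <;> norm_num at hy ⊢ <;> linarith
  linarith

end

end Cfsg.Agent.H272.RG.FiZ
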