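import Cfsg.Agent.H867.Gen.FiTwentyTwo
import Cfsg.Agent.H123.Cls.FiOre

/-!
# S3509, row `Fi22`: conjugates of elements of odd prime order generate: definitions (helper272)

* `chkU_spec` : kernel check (tables on the 3510 points) for an element of order 22 and an element not commuting with its 11th
  power;
* `top_of_chk` : generation by conjugates of an element;
* `G3 x` : some three conjugates of `x` generate `Fi22`.
-/

set_option autoImplicit false
set_option maxRecDepth 1000000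
set_option exponentiation.threshold 5000
set_option linter.constructorNameAsVariable false

namespace Cfsg.Agent.H272.RG.FiZ

open Subgroup Cfsg Cfsg.Spor Cfsg.Spor.Fi22 Cfsg.Agent.Fischer Cfsg.Agent.Fischer.Fi22PtsRep
open Cfsg.Agent.H834 Cfsg.Agent.H834.AC Cfsg.Agent.H867.SprFi22 Cfsg.Agent.Lib.PermNet Cfsg.Agent.Lib.PermNetOrbit Cfsg.Agent.Lib.PermNetFix
open Cfsg.Agent.H123.Cls (lk it it_eq allN allN_iff band band_true evw evw_cons chkL chkL_iff nth)
open Cfsg.Agent.H123.Cls.FiDat (gens gn gn_tab el el_cons el_append el_reverse W words_cover comm_tab)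
open Cfsg.Agent.H494.F22 (rho rho_injective)

/-! ### words in the model of helper834 -/

theorem eqB_of_wd {u v : List Gen} (h : mdl.wd u = mdl.wd v) : eqB u v = true := by
  have key : ∀ l : List ℕ, eqL u v l = true := by
    intro l
    induction l with
    | nil => rfl
    | cons p l ih =>
      show and (Nat.beq (ptWord (nw u) p) (ptWord (nw v) p)) (eqL u v l) = true
      rw [ih, ← mdl.φ_wd_apply, ← mdl.φ_wd_apply, h, Nat.beq_refl]
      rfl
  exact key _

/-- the word of a commutator -/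
def cm (a b : List ℕ) : List Gen := (a ++ b ++ a.reverse ++ b.reverse).map gn

theorem el_eq (l : List ℕ) : el l = mdl.wd (l.map gn) := by
  show _ = Fi22PtsRep.wd (l.map gn)
  rw [el, Fi22PtsRep.wd, List.map_map]
  rfl

theorem cm_eq (a b : List ℕ) : el a * el b * (el a)⁻¹ * (el b)⁻¹ = mdl.wd (cm a b) := by
  rw [cm, ← el_eq, el_append, el_append, el_append, el_reverse, el_reverse]

/-- words of the representatives of odd prime order -/
def C8 : List (List ℕ × List ℕ) := [([2], [1]), ([3, 7, 4, 0, 3, 8, 5, 4, 7, 3], [2, 8, 7]), ([0, 3], [1, 7]),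
  ([1, 8, 6], [2, 5, 7]), ([8, 2], [7, 3]), ([0, 8, 3], [1, 2, 7]), ([3, 2, 8, 6, 0], [1, 8, 7, 3, 4, 5]),
  ([5, 8, 2, 0], [1, 3, 4, 7])]

/-- in the list -/
def inC (a b : List ℕ) : Bool := C8.any fun z => decide (z.1 = a ∧ z.2 = b)

/-- trivial or not of odd prime order -/
noncomputable def no5 (w : List Gen) : Bool :=
  eqB w [] || (!(eqB (rep 3 w) []) && (!(eqB (rep 5 w) []) && (!(eqB (rep 7 w) []) && (!(eqB (rep 11 w) []) &&
    !(eqB (rep 13 w) [])))))

/-! ### tables -/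

/-- the element with the table `P` -/
def Tb (g : Spor.Fi22) (P : ℕ) : Prop := ∀ p : Fin 3510, (rho g p : ℕ) = lk 12 P p

/-- value of a word, the letter nine is `x` -/
noncomputable def elx (x : Spor.Fi22) (L : List ℕ) : Spor.Fi22 :=
  (L.map fun n => if n = 9 then x else (PresentedGroup.of (gn n) : Spor.Fi22)).prod

theorem elx_nil (x : Spor.Fi22) : elx x [] = 1 := rfl

theorem elx_cons (x : Spor.Fi22) (n : ℕ) (L : List ℕ) :
    elx x (n :: L) = (if n = 9 then x else (PresentedGroup.of (gn n) : Spor.Fi22)) * elx x L := by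
  simp only [elx, List.map_cons, List.prod_cons]

theorem elx_append (x : Spor.Fi22) (u v : List ℕ) : elx x (u ++ v) = elx x u * elx x v := by
  simp only [elx, List.map_append, List.prod_append]

theorem elx_tab {x : Spor.Fi22} {P : ℕ} (hx : Tb x P) : ∀ (L : List ℕ), (∀ n ∈ L, n < 10) → ∀ p : Fin 3510,
    (rho (elx x L) p : ℕ) = evw 12 (gens ++ [P]) L p
  | [], _, p => by
    show (rho 1 p : ℕ) = p
    rw [map_one]
    rfl
  | n :: L, h, p => by
    rw [elx_cons, map_mul, Equiv.Perm.mul_apply, evw_cons, ← elx_tab hx L fun y hy => h y (List.mem_cons_of_mem _ hy)]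
    rcases Nat.lt_succ_iff_lt_or_eq.1 (h n List.mem_cons_self) with h1 | rfl
    · rw [if_neg h1.ne, gn_tab h1]
      congr 1
      interval_cases n <;> rfl
    · rw [if_pos rfl]
      exact hx _

/-- the check -/
noncomputable def chkU (P : ℕ) (L : List ℕ) (U : ℕ) : Bool :=
  band (chkL 10 L) (band (allN (fun p => Nat.beq (evw 12 (gens ++ [P]) L p) (lk 12 U p)) 3510)
    (band (allN (fun p => Nat.beq (it 12 U 22 p) p) 3510) (band (!(Nat.beq (it 12 U 2 0) 0))
      (!(Nat.beq (lk 12 P (it 12 U 11 0)) (it 12 U 11 (lk 12 P 0)))))))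

theorem chkU_spec {x : Spor.Fi22} {P U : ℕ} {L : List ℕ} (hx : Tb x P) (h : chkU P L U = true) :
    orderOf (elx x L) = 22 ∧ x * elx x L ^ 11 ≠ elx x L ^ 11 * x := by
  obtain ⟨hL, h⟩ := band_true h
  obtain ⟨hU, h⟩ := band_true h
  obtain ⟨h22, h⟩ := band_true h
  obtain ⟨h2, h11⟩ := band_true h
  rw [Bool.not_eq_true', ← Bool.not_eq_true, Nat.beq_eq] at h2 h11
  have hu : Tb (elx x L) U := fun p => by
    rw [elx_tab hx L (chkL_iff _ L hL)]
    exact Nat.eq_of_beq_eq_true ((allN_iff _ _).1 hU p p.2)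
  set u := elx x L with hudef
  have hit : ∀ (j : ℕ) (p : Fin 3510), it 12 U j p = (rho (u ^ j) p : ℕ) := fun j p => by
    rw [map_pow]
    exact it_eq hu j p
  have h0 : ∀ j : ℕ, it 12 U j 0 = (rho (u ^ j) 0 : ℕ) := fun j => hit j 0
  have h4 : x * u ^ 11 ≠ u ^ 11 * x := by
    intro h5
    apply h11
    have h6 : (rho (x * u ^ 11) 0 : ℕ) = (rho (u ^ 11 * x) 0 : ℕ) := by rw [h5]
    rw [map_mul, map_mul, Equiv.Perm.mul_apply, Equiv.Perm.mul_apply, hx, ← hit, ← hit, hx] at h6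
    exact h6
  refine ⟨?_, h4⟩
  have h5 : u ^ 22 = 1 := by
    apply rho_injective
    rw [map_one]
    ext p
    rw [Equiv.Perm.one_apply, ← hit]
    exact Nat.eq_of_beq_eq_true ((allN_iff _ _).1 h22 p p.2)
  have h6 : orderOf u ∣ 22 := orderOf_dvd_of_pow_eq_one h5
  have h7 : ¬ orderOf u ∣ 2 := by
    intro h8
    rw [orderOf_dvd_iff_pow_eq_one] at h8
    apply h2
    rw [h0, h8, map_one]
    rfl
  have h8 : ¬ orderOf u ∣ 11 := by
    intro h8
    rw [orderOf_dvd_iff_pow_eq_one] at h8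
    exact h4 (by rw [h8, mul_one, one_mul])
  have h9 : orderOf u ∈ Nat.divisors 22 := Nat.mem_divisors.2 ⟨h6, by norm_num⟩
  have h10 : Nat.divisors 22 = {1, 2, 11, 22} := by decide
  rw [h10] at h9
  simp only [Finset.mem_insert, Finset.mem_singleton] at h9
  rcases h9 with h | h | h | h
  · exact absurd (h ▸ one_dvd _) h7
  · exact absurd (h ▸ dvd_rfl) h7
  · exact absurd (h ▸ dvd_rfl) h8
  · exact h

/-! ### conjugates -/

/-- the word of `c x ^ k c⁻¹` -/
def pc (c : List ℕ) (k : ℕ) : List ℕ := c ++ (List.replicate k 9 ++ c.reverse)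

theorem elx_eq {x : Spor.Fi22} : ∀ {c : List ℕ}, (∀ n ∈ c, n < 9) → elx x c = el c
  | [], _ => rfl
  | n :: c, h => by
    rw [elx_cons, el_cons, if_neg (h n List.mem_cons_self).ne, elx_eq fun y hy => h y (List.mem_cons_of_mem _ hy)]

theorem elx_pc {x : Spor.Fi22} {c : List ℕ} (hc : ∀ n ∈ c, n < 9) (k : ℕ) :
    elx x (pc c k) = (el c * x * (el c)⁻¹) ^ k := by
  have h1 : elx x (List.replicate k 9) = x ^ k := by
    induction k with
    | zero => rw [pow_zero]; rfl
    | succ k ih => rw [List.replicate_succ, elx_cons, if_pos rfl, ih, pow_succ']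
  rw [pc, elx_append, elx_append, h1, elx_eq hc, elx_eq (by simpa using hc), el_reverse, conj_pow, mul_assoc]

/-- a product of powers of conjugates -/
def ex (l : List (List ℕ × ℕ)) : List ℕ := l.flatMap fun z => pc z.1 z.2

theorem ex_mem {x : Spor.Fi22} {K : Subgroup Spor.Fi22} : ∀ {l : List (List ℕ × ℕ)},
    (∀ z ∈ l, (∀ n ∈ z.1, n < 9) ∧ el z.1 * x * (el z.1)⁻¹ ∈ K) → elx x (ex l) ∈ K
  | [], _ => by
    show elx x [] ∈ K
    rw [elx_nil]
    exact one_mem _
  | z :: l, h => by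
    have h1 : ex (z :: l) = pc z.1 z.2 ++ ex l := by simp [ex]
    have h2 := h z List.mem_cons_self
    rw [h1, elx_append, elx_pc h2.1]
    exact mul_mem (pow_mem h2.2 _) (ex_mem fun y hy => h y (List.mem_cons_of_mem _ hy))

theorem top_of_chk {x : Spor.Fi22} {P U : ℕ} {L : List ℕ} {l : List (List ℕ × ℕ)} (hx : Tb x P) (h : chkU P L U = true)
    (hL : ex l = L) {K : Subgroup Spor.Fi22} (h0 : x ∈ K)
    (hK : ∀ z ∈ l, (∀ n ∈ z.1, n < 9) ∧ el z.1 * x * (el z.1)⁻¹ ∈ K) : K = ⊤ := by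
  obtain ⟨h1, h2⟩ := chkU_spec hx h
  exact Cfsg.Agent.H867.Gen.FiTwentyTwo.top_of_order (by rw [← hL]; exact ex_mem hK) h0 h1 h2

/-- three conjugates generate -/
def G3 (x : Spor.Fi22) : Prop := ∃ c d : Spor.Fi22, ∀ K : Subgroup Spor.Fi22, x ∈ K → c * x * c⁻¹ ∈ K → d * x * d⁻¹ ∈ K → K = ⊤

theorem G3.map {x : Spor.Fi22} (h : G3 x) (θ : MulAut Spor.Fi22) : G3 (θ x) := by
  obtain ⟨c, d, h⟩ := h
  refine ⟨θ c, θ d, fun K h1 h2 h3 => ?_⟩
  have h4 := h (K.comap (θ : Spor.Fi22 →* Spor.Fi22)) h1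
    (by rw [mem_comap]; show θ (c * x * c⁻¹) ∈ K; rw [map_mul, map_mul, map_inv]; exact h2)
    (by rw [mem_comap]; show θ (d * x * d⁻¹) ∈ K; rw [map_mul, map_mul, map_inv]; exact h3)
  rw [eq_top_iff]
  intro t _
  have h5 : θ.symm t ∈ K.comap (θ : Spor.Fi22 →* Spor.Fi22) := by rw [h4]; trivial
  have h6 : θ (θ.symm t) ∈ K := h5
  rwa [MulEquiv.apply_symm_apply] at h6

/-- check of the letters and conjugators -/
def chkl (c d : List ℕ) (l : List (List ℕ × ℕ)) : Bool :=
  l.all fun z => decide (z.1 = [] ∨ z.1 = c ∨ z.1 = d) && z.1.all fun n => Nat.blt n 9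

theorem G3.of_chk {x : Spor.Fi22} {P U : ℕ} {L : List ℕ} {c d : List ℕ} {l : List (List ℕ × ℕ)} (hx : Tb x P)
    (h : chkU P L U = true) (hL : ex l = L) (hl : chkl c d l = true) : G3 x := by
  refine ⟨el c, el d, fun K h1 h2 h3 => top_of_chk hx h hL h1 fun z hz => ?_⟩
  have h4 := List.all_eq_true.1 hl z hz
  rw [Bool.and_eq_true] at h4
  refine ⟨fun n hn => Nat.blt_eq.mp (List.all_eq_true.1 h4.2 n hn), ?_⟩
  rcases of_decide_eq_true h4.1 with h5 | h5 | h5
  · rw [h5]
    show 1 * x * 1⁻¹ ∈ K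
    rwa [one_mul, inv_one, mul_one]
  · rwa [h5]
  · rwa [h5]

/-- an element of the class `3D` -/
noncomputable def xD : Spor.Fi22 := el [1, 8, 6] * el [2, 5, 7] * (el [1, 8, 6])⁻¹ * (el [2, 5, 7])⁻¹

/-- an element of order nine -/
noncomputable def gD : Spor.Fi22 := el [0, 2, 3, 1, 7, 5, 8, 5, 4]

end Cfsg.Agent.H272.RG.FiZ
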